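import Cfsg.Agent.Lib.ECore.Coord
import Cfsg.Agent.Lib.Chev.Perfect

/-!
Over the field with two elements: the `n_p` are involutions permuting the root elements without
scalars, and they act on the closures `X(f ≥ m)`.  Normalisers of these closures; maximality of
maximal parabolic subgroups.
-/

set_option autoImplicit false
set_option linter.unusedSectionVars false
set_option linter.unusedVariables false
set_option linter.ambiguousOpen false

namespace Cfsg.Agent.Lib.ECore.Conj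

open scoped MatrixGroups Matrix
open Cfsg Lie ChevalleyDatum Cfsg.Agent.Lib.Chev
open Tables Tables2 Raise Basic AxBasic Torus Products Products2 Mono1 Mono2 Mono3 Bn Coord
open Cfsg.Agent.Lib.ECore.Coord

variable {D : ChevalleyDatum}

/-- The functional `r ↦ f (s_i r)`. -/
def refW (D : ChevalleyDatum) (f : ℕ → ℤ) (i : ℕ) : ℕ → ℤ :=
  fun j => f j - f i * D.cartan i (D.simple j)

lemma lin_refW (h : Tab D) (f : ℕ → ℤ) {i s : ℕ} (hi : i < D.rank) (hs : s < D.nroots) :
    lin D (refW D f i) s = lin D f (D.reflectRoot i s) := by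
  rw [lin_reflect h f hi hs, h.cartan_lin i hi s hs]
  simp only [lin, refW, sub_mul, Finset.sum_sub_distrib, Finset.mul_sum]
  congr 1
  apply Finset.sum_congr rfl
  intro j _
  ring

lemma Ge_refW_refW (h : Tab D) (f : ℕ → ℤ) {i : ℕ} (hi : i < D.rank) (m : ℤ) :
    Ge D (refW D (refW D f i) i) m = Ge D f m := by
  funext r
  apply propext
  constructor
  · rintro ⟨hr, hm⟩
    refine ⟨hr, ?_⟩
    rw [lin_refW h _ hi hr, lin_refW h _ hi (h.reflect_lt i hi r hr), reflect_reflect h hi hr] at hm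
    exact hm
  · rintro ⟨hr, hm⟩
    refine ⟨hr, ?_⟩
    rw [lin_refW h _ hi hr, lin_refW h _ hi (h.reflect_lt i hi r hr), reflect_reflect h hi hr]
    exact hm

lemma lin_simple (h : Tab D) (f : ℕ → ℤ) {i : ℕ} (hi : i < D.rank) : lin D f (D.simple i) = f i := by
  simp only [lin]
  rw [Finset.sum_eq_single i]
  · rw [h.coef_simple i hi i hi]; simp
  · intro j hj hji
    rw [h.coef_simple i hi j (Finset.mem_range.mp hj), if_neg hji]; simp
  · intro hn
    exact absurd (Finset.mem_range.mpr hi) hn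

section normalizer

variable {F : Type*} [Field F] (h : Tab D) (ax : Ax D F)

include h in
/-- A root element with `f ≥ 0` normalises the closure of the roots with `f ≥ k`. -/
lemma xG_mem_normalizer_Ge {f : ℕ → ℤ} (k : ℤ) {r : ℕ} (hr : Ge D f 0 r) (t : F) :
    xG ax r t ∈ Subgroup.normalizer (rootClosure ax (Ge D f k) : Set (GL D.Idx F)) := by
  by_cases hk : k ≤ lin D f r
  · exact Subgroup.le_normalizer (xG_mem_rootClosure ax ⟨hr.1, hk⟩ t)
  · have hr0 := hr.1
    apply xG_mem_normalizer ax h hr0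
    rintro s ⟨hs, hsk⟩
    have hr1 := hr.2
    refine ⟨hs, ?_, ?_, fun t u q hq => ?_⟩
    · rintro rfl
      exact hk hsk
    · rintro rfl
      rw [lin_neg h f hr0] at hsk
      omega
    · obtain ⟨hq0, a', b', ha', hb', hv⟩ := commWord_spec h hr0 hs hq
      refine ⟨hq0, ?_⟩
      rw [lin_vec (f := f) hv]
      have h3 : (1 : ℤ) ≤ a' := by exact_mod_cast ha'
      have h4 : (1 : ℤ) ≤ b' := by exact_mod_cast hb'
      have h5 : (0 : ℤ) ≤ (a' : ℤ) * lin D f r := mul_nonneg (by omega) hr1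
      have hs0 : k ≤ lin D f s := hsk
      have hr2 : lin D f r < k := by omega
      have hs1 : 0 ≤ lin D f s := by omega
      nlinarith

include h in
/-- `X(f ≥ 0)` normalises `X(f ≥ k)`. -/
lemma closure_le_normalizer {f : ℕ → ℤ} (k : ℤ) :
    rootClosure ax (Ge D f 0) ≤ Subgroup.normalizer (rootClosure ax (Ge D f k) : Set (GL D.Idx F)) :=
  rootClosure_le ax fun r t hr => xG_mem_normalizer_Ge h ax k hr t

end normalizer

section two

variable (h : Tab D) (h2 : Tab2 D) (ax : Ax D (ZMod 2))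

lemma unit_val_eq_one (c : (ZMod 2)ˣ) : (c : ZMod 2) = 1 := by
  have := c.ne_zero
  revert this
  generalize (c : ZMod 2) = a
  revert a
  decide

lemma neg_one_eq : (-1 : ZMod 2) = 1 := by decide

include h h2 in
lemma sG_conj_x {i r : ℕ} (hi : i < D.rank) (hr : r < D.nroots) (t : ZMod 2) :
    sG ax i * xG ax r t * (sG ax i)⁻¹ = xG ax (D.reflectRoot i r) t := by
  obtain ⟨c, hc⟩ := exists_isNor_sG h ax h2 (F := ZMod 2) hi
  have e := hc.conj ⟨r, hr⟩ t
  rw [unit_val_eq_one, one_mul] at e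
  exact e

lemma sG_inv (i : ℕ) : (sG ax i)⁻¹ = sG ax i := by
  rw [sG, nG_inv, neg_one_eq]

lemma sG_mul_self (i : ℕ) : sG ax i * sG ax i = 1 := by
  nth_rw 2 [← sG_inv ax i]
  exact mul_inv_cancel _

include h h2 in
lemma sG_conj_mem {i : ℕ} (hi : i < D.rank) {f : ℕ → ℤ} {m : ℤ} {y : GL D.Idx (ZMod 2)}
    (hy : y ∈ rootClosure ax (Ge D f m)) :
    sG ax i * y * (sG ax i)⁻¹ ∈ rootClosure ax (Ge D (refW D f i) m) := by
  apply conj_mem_of_gen ax ?_ hy
  intro r t hr
  rw [sG_conj_x h h2 ax hi hr.1]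
  apply xG_mem_rootClosure
  refine ⟨h.reflect_lt i hi r hr.1, ?_⟩
  rw [lin_refW h f hi (h.reflect_lt i hi r hr.1), reflect_reflect h hi hr.1]
  exact hr.2

lemma sG_conj_conj (i : ℕ) (y : GL D.Idx (ZMod 2)) :
    sG ax i * (sG ax i * y * (sG ax i)⁻¹) * (sG ax i)⁻¹ = y := by
  rw [sG_inv]
  have := sG_mul_self ax i
  calc sG ax i * (sG ax i * y * sG ax i) * sG ax i
      = (sG ax i * sG ax i) * y * (sG ax i * sG ax i) := by group
    _ = y := by rw [this]; simp

include h h2 in
lemma mem_refW_iff {i : ℕ} (hi : i < D.rank) {f : ℕ → ℤ} {m : ℤ} (y : GL D.Idx (ZMod 2)) :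
    y ∈ rootClosure ax (Ge D (refW D f i) m) ↔
      sG ax i * y * (sG ax i)⁻¹ ∈ rootClosure ax (Ge D f m) := by
  constructor
  · intro hy
    have := sG_conj_mem h h2 ax hi hy
    rwa [Ge_refW_refW h f hi] at this
  · intro hy
    have := sG_conj_mem h h2 ax hi hy
    rwa [sG_conj_conj] at this

include h h2 in
lemma mem_iff_refW {i : ℕ} (hi : i < D.rank) {f : ℕ → ℤ} {m : ℤ} (y : GL D.Idx (ZMod 2)) :
    y ∈ rootClosure ax (Ge D f m) ↔
      sG ax i * y * (sG ax i)⁻¹ ∈ rootClosure ax (Ge D (refW D f i) m) := by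
  constructor
  · exact sG_conj_mem h h2 ax hi
  · intro hy
    have := sG_conj_mem h h2 ax hi hy
    rw [sG_conj_conj, Ge_refW_refW h f hi] at this
    exact this

include ax in
/-- the torus is trivial -/
lemma diagonal_eq_bot : D.diagonalSubgroup (ZMod 2) = ⊥ := by
  rw [diagonalSubgroup, Subgroup.closure_eq_bot_iff]
  rintro g ⟨r, t, hr, ht, hg⟩
  have h1 : t = 1 := by
    revert ht
    generalize t = a
    revert a
    decide
  subst h1
  have e : g = hG ax r 1 := Units.ext (by rw [hg, hG_val])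
  have e2 : hG ax r 1 = 1 := by
    rw [hG, ← neg_one_eq, ← nG_inv]
    rw [neg_one_eq]
    exact mul_inv_cancel _
  rw [Set.mem_singleton_iff, e, e2]

include ax in
lemma borel_eq : D.borelSubgroup (ZMod 2) = D.posUnipotent (ZMod 2) := by
  rw [borelSubgroup, diagonal_eq_bot ax, sup_bot_eq]

end two

/-! ### Maximality -/

section max

variable (h : Tab D) (h2 : Tab2 D) (ax : Ax D (ZMod 2))

/-- The closure as a subgroup of the group. -/
def Sg (ax : Ax D (ZMod 2)) (T : ℕ → Prop) : Subgroup ↥(D.group (ZMod 2)) :=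
  (rootClosure ax T).subgroupOf (D.group (ZMod 2))

@[simp] lemma mem_Sg {T : ℕ → Prop} {y : ↥(D.group (ZMod 2))} :
    y ∈ Sg ax T ↔ (y : GL D.Idx (ZMod 2)) ∈ rootClosure ax T := Subgroup.mem_subgroupOf

include h h2 in
lemma sG_mem_Ge_zero {f : ℕ → ℤ} {i : ℕ} (hi : i < D.rank) (hf : f i = 0) :
    sG ax i ∈ rootClosure ax (Ge D f 0) := by
  have hp := h.simple_lt i hi
  have h1 : Ge D f 0 (D.simple i) := ⟨hp, by rw [lin_simple h f hi, hf]⟩
  have h3 : Ge D f 0 (D.neg (D.simple i)) :=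
    ⟨h.neg_lt _ hp, by rw [lin_neg h f hp, lin_simple h f hi, hf]; simp⟩
  rw [sG, nG]
  exact Subgroup.mul_mem _ (Subgroup.mul_mem _ (xG_mem_rootClosure ax h1 _)
    (xG_mem_rootClosure ax h3 _)) (xG_mem_rootClosure ax h1 _)

include h h2 in
/-- The closure of the roots where `f = e_{i₀}` is non-negative is a maximal subgroup of the group. -/
theorem isCoatom_Ge {f : ℕ → ℤ} {i₀ : ℕ} (hi₀ : i₀ < D.rank) (hf0 : 0 < f i₀)
    (hf : ∀ i, i < D.rank → i ≠ i₀ → f i = 0) : IsCoatom (Sg ax (Ge D f 0)) := by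
  classical
  let P := bnPair h h2 ax
  have hBM : P.B ≤ Sg ax (Ge D f 0) := by
    intro b hb
    have hb' : (b : GL D.Idx (ZMod 2)) ∈ D.borelSubgroup (ZMod 2) := hb
    rw [borel_eq ax, posUnipotent_eq ax] at hb'
    rw [mem_Sg]
    refine rootClosure_mono ax ?_ hb'
    intro r hr
    refine ⟨hr.1, ?_⟩
    have hc := (isPosRoot_iff h hr.1).mp hr
    simp only [lin]
    apply Finset.sum_nonneg
    intro j hj
    have hj' := Finset.mem_range.mp hj
    by_cases hji : j = i₀
    · rw [hji]; exact mul_nonneg hf0.le (hc i₀ hi₀)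
    · rw [hf j hj' hji]; simp
  have hsG : ∀ i, i < D.rank → ∃ n : ↥(D.group (ZMod 2)), (n : GL D.Idx (ZMod 2)) = sG ax i ∧ n ∈ P.S := by
    intro i hi
    have hm := monomial_le_group h ax (sG_mem_monomial h h2 ax hi)
    exact ⟨⟨sG ax i, hm⟩, rfl, i, hi, sG_val ax i⟩
  have hp₀ := h.simple_lt i₀ hi₀
  constructor
  · intro htop
    have hmem : xG ax (D.neg (D.simple i₀)) 1 ∈ D.group (ZMod 2) := xG_mem_group ax (h.neg_lt _ hp₀) 1
    have h3 : (⟨_, hmem⟩ : ↥(D.group (ZMod 2))) ∈ Sg ax (Ge D f 0) := by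
      rw [htop]; trivial
    have h4 := mem_upSub_of_mem h ax le_rfl ((mem_Sg ax).mp h3)
    have h5 := lin_nonneg_of_mem_upSub h h2 ax (h.neg_lt _ hp₀) one_ne_zero h4
    rw [lin_neg h f hp₀, lin_simple h f hi₀] at h5
    omega
  · intro K hK
    have hBK : P.B ≤ K := hBM.trans hK.le
    have heqK := BNPair.Basic.eq_parabolic (P := P) hBK
    have heqM := BNPair.Basic.eq_parabolic (P := P) hBM
    obtain ⟨n₀, hn₀, hn₀S⟩ := hsG i₀ hi₀
    have hn₀K : n₀ ∈ K := by
      by_contra hn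
      apply hK.2
      rw [heqK]
      rw [SetLike.le_def]
      intro x hx
      rw [heqM]
      refine (sup_le_sup_left (Subgroup.closure_mono ?_) _) hx
      rintro s ⟨⟨i, hi, hs⟩, hsK⟩
      refine ⟨⟨i, hi, hs⟩, ?_⟩
      have e := eq_sG_of_mem h h2 ax hs
      by_cases hii : i = i₀
      · exfalso
        apply hn
        have : s = n₀ := Subtype.ext (by rw [e, hn₀, hii])
        rwa [← this]
      · rw [mem_Sg, e]
        exact sG_mem_Ge_zero h h2 ax hi (hf i hi hii)
    rw [eq_top_iff, ← BNPair.Basic.parabolic_S_eq_top (P := P)]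
    apply sup_le hBK
    rw [Subgroup.closure_le]
    rintro s ⟨i, hi, hs⟩
    have e := eq_sG_of_mem h h2 ax hs
    by_cases hii : i = i₀
    · have : s = n₀ := Subtype.ext (by rw [e, hn₀, hii])
      rw [this]; exact hn₀K
    · apply hK.le
      rw [mem_Sg, e]
      exact sG_mem_Ge_zero h h2 ax hi (hf i hi hii)

end max

end Cfsg.Agent.Lib.ECore.Conj
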