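import Cfsg.Agent.Lib.Chev.Parab
import Cfsg.Agent.Lib.BNPair.Simple

/-!
Root elements and gradings: a functional `f` on the roots gives the subgroups generated by the root
elements with `f ≥ m`; their elements raise the grading by `m`, and in an ordered product of root
elements lying in such a subgroup the coefficients at roots with `f < m` vanish.  A subgroup of the
group which is triangular for a functional positive on the fundamental roots lies in the Borel
subgroup.
-/

set_option autoImplicit false
set_option linter.unusedSectionVars false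
set_option linter.unusedVariables false
set_option linter.ambiguousOpen false

namespace Cfsg.Agent.Lib.ECore.Coord

open scoped MatrixGroups Matrix
open Cfsg Lie ChevalleyDatum Cfsg.Agent.Lib.Chev
open Tables Tables2 Raise Basic AxBasic Torus Products Products2 Mono1 Mono2 Bn

variable {D : ChevalleyDatum} {F : Type*} [Field F]

/-- The roots where `f` is at least `m`. -/
def Ge (D : ChevalleyDatum) (f : ℕ → ℤ) (m : ℤ) : ℕ → Prop := fun r => r < D.nroots ∧ m ≤ lin D f r

lemma Ge_mono {f : ℕ → ℤ} {m k : ℤ} (hk : k ≤ m) {r : ℕ} (hr : Ge D f m r) : Ge D f k r :=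
  ⟨hr.1, hk.trans hr.2⟩

/-- `x_r(t) - 1` raises a grading by `m ≥ 0` when the functional is at least `m` on `r`. -/
lemma raises_x0 (h : Tab D) {f : ℕ → ℤ} {r : ℕ} (hr : r < D.nroots) {m : ℤ} (hm : 0 ≤ m)
    (hfr : m ≤ lin D f r) (t : F) : Raises (grade D f) m (D.x F r t - 1) := by
  intro row col hne
  by_cases hrc : row = col
  · subst hrc
    simp [x_diag h hr t row] at hne
  · have hne' : D.x F r t row col ≠ 0 := by
      intro h0
      apply hne
      simp [h0, Matrix.one_apply_ne hrc]
    rcases x_ne_zero h f hr hne' with h1 | ⟨k, hk, hl⟩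
    · exact absurd h1 hrc
    · rw [hl]
      have : (1 : ℤ) ≤ k := by exact_mod_cast hk
      nlinarith

variable (h : Tab D) (h2 : Tab2 D) (ax : Ax D F)

include h in
/-- elements of the closure raise the grading -/
lemma raises_of_mem {f : ℕ → ℤ} {m : ℤ} (hm : 0 ≤ m) {y : GL D.Idx F}
    (hy : y ∈ rootClosure ax (Ge D f m)) :
    Raises (grade D f) m ((y : Matrix D.Idx D.Idx F) - 1) := by
  refine rootClosure_induction ax
    (Q := fun y : GL D.Idx F => Raises (grade D f) m ((y : Matrix D.Idx D.Idx F) - 1)) ?_ ?_ ?_ hy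
  · simpa using raises_zero (F := F) (g := grade D f) m
  · intro r t hr
    exact raises_x0 h hr.1 hm hr.2 t
  · intro a b ha hb
    have e : ((a * b : GL D.Idx F) : Matrix D.Idx D.Idx F) - 1 =
        ((a : Matrix D.Idx D.Idx F) - 1) * ((b : Matrix D.Idx D.Idx F) - 1) +
          ((a : Matrix D.Idx D.Idx F) - 1) + ((b : Matrix D.Idx D.Idx F) - 1) := by
      simp only [Units.val_mul]
      noncomm_ring
    rw [e]
    have h3 := (ha.mul hb).mono (k := m) (by omega)
    exact (h3.add ha).add hb

include h in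
lemma mem_upSub_of_mem {f : ℕ → ℤ} {m : ℤ} (hm : 0 ≤ m) {y : GL D.Idx F}
    (hy : y ∈ rootClosure ax (Ge D f m)) : y ∈ upSub (F := F) (grade D f) := by
  constructor
  · exact raises_zero_of_mem hm (raises_of_mem h ax hm hy)
  · exact raises_zero_of_mem hm (raises_of_mem h ax hm (Subgroup.inv_mem _ hy))

lemma lin_add (f g : ℕ → ℤ) (r : ℕ) : lin D (fun j => f j + g j) r = lin D f r + lin D g r := by
  simp only [lin, add_mul, Finset.sum_add_distrib]

lemma grade_add (f g : ℕ → ℤ) (v : D.Idx) :
    grade D (fun j => f j + g j) v = grade D f v + grade D g v := by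
  cases v with
  | inl i => simp
  | inr s => simpa using lin_add f g s

lemma upSub_add {f g : ℕ → ℤ} {y : GL D.Idx F} (hf : y ∈ upSub (F := F) (grade D f))
    (hg : y ∈ upSub (F := F) (grade D g)) : y ∈ upSub (F := F) (grade D fun j => f j + g j) := by
  constructor
  · intro i j hij
    have h3 := hf.1 i j hij
    have h4 := hg.1 i j hij
    rw [grade_add, grade_add]
    omega
  · intro i j hij
    have h3 := hf.2 i j hij
    have h4 := hg.2 i j hij
    rw [grade_add, grade_add]
    omega

lemma upSub_zero (y : GL D.Idx F) : y ∈ upSub (F := F) (grade D fun _ => 0) := by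
  have : ∀ v, grade D (fun _ => 0) v = 0 := by
    intro v
    cases v with
    | inl i => simp
    | inr s => simp [lin]
  constructor
  · intro i j _
    rw [this, this]; simp
  · intro i j _
    rw [this, this]; simp

/-- A sum of functionals along a list. -/
def sumFun {ι : Type*} (L : List ι) (f : ι → ℕ → ℤ) : ℕ → ℤ :=
  fun j => (L.map fun u => f u j).sum

lemma upSub_sum {ι : Type*} (L : List ι) (f : ι → ℕ → ℤ) {y : GL D.Idx F}
    (hf : ∀ u ∈ L, y ∈ upSub (F := F) (grade D (f u))) :
    y ∈ upSub (F := F) (grade D (sumFun L f)) := by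
  induction L with
  | nil => exact upSub_zero y
  | cons a L ih =>
    have h3 := upSub_add (hf a (by simp)) (ih fun u hu => hf u (by simp [hu]))
    have e : sumFun (a :: L) f = fun j => f a j + sumFun L f j := by
      funext j
      simp [sumFun]
    rw [e]
    exact h3

include h h2 in
/-- The entry of `x_a(c) y` at (row of a coroot, column of `-a`), for later factors `y`. -/
lemma entry_head {a : ℕ} (ha : D.IsPosRoot a) {L : List ℕ}
    (hL : ∀ s ∈ L, D.IsPosRoot s ∧ a < s) (c : F) {y : GL D.Idx F}
    (hy : y ∈ rootClosure ax (· ∈ L)) {i : ℕ} (hi : i < D.rank) (hna : D.neg a < D.nroots) :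
    ((xG ax a c * y : GL D.Idx F) : Matrix D.Idx D.Idx F) (Sum.inl ⟨i, hi⟩) (Sum.inr ⟨D.neg a, hna⟩) =
      (((D.coroot.getD a #[]).getD i 0 : ℤ) : F) * c := by
  have ha0 := ha.1
  have hm : (1 : ℤ) ≤ lex D a + 1 := by have := lex_pos h ha; omega
  have hK : rootClosure ax (· ∈ L) ≤ raisingSubgroup (F := F) (grade D (lexW D.rank)) (lex D a + 1) hm := by
    rw [rootClosure]
    have := Unipotent.closure_le_raising (F := F) (f := lexW D.rank) h hm (· ∈ L) (fun s hs => by
      refine ⟨(hL s hs).1.1, ?_⟩
      have := lex_strictMono h (hL s hs).1.1 (hL s hs).2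
      show lex D a + 1 ≤ lex D s
      omega)
    rw [closure_eq_rootClosure ax] at this
    exact this
  have hG' : ∀ w : GL D.Idx F, w ∈ rootClosure ax (· ∈ L) → (w : Matrix D.Idx D.Idx F) (Sum.inl ⟨i, hi⟩) (Sum.inr ⟨D.neg a, hna⟩) = 0 := by
    intro w hw
    have hr := hK hw
    rw [mem_raisingSubgroup] at hr
    by_contra hne
    have hne' : ((w : Matrix D.Idx D.Idx F) - 1) (Sum.inl ⟨i, hi⟩) (Sum.inr ⟨D.neg a, hna⟩) ≠ 0 := by
      simpa [Matrix.one_apply] using hne
    have := hr _ _ hne'
    simp only [grade_inl, grade_inr] at this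
    have h1 := lin_neg h (lexW D.rank) ha0
    simp only [lex] at *
    omega
  have hd : ∀ w : GL D.Idx F, w ∈ rootClosure ax (· ∈ L) → (w : Matrix D.Idx D.Idx F) (Sum.inr ⟨D.neg a, hna⟩) (Sum.inr ⟨D.neg a, hna⟩) = 1 := by
    intro w hw
    have hr := hK hw
    rw [mem_raisingSubgroup] at hr
    by_contra hne
    have hne' : ((w : Matrix D.Idx D.Idx F) - 1) (Sum.inr ⟨D.neg a, hna⟩) (Sum.inr ⟨D.neg a, hna⟩) ≠ 0 := by
      simpa [sub_eq_zero] using hne
    have := hr _ _ hne'
    have h1 := lex_pos h ha
    simp only [lex] at h1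
    omega
  simp only [Units.val_mul, xG_val]
  rw [Matrix.mul_apply]
  have hne2 : D.neg a ≠ a := h.neg_ne a ha0
  rw [Finset.sum_eq_add (Sum.inl ⟨i, hi⟩) (Sum.inr ⟨D.neg a, hna⟩) (by simp)]
  · rw [x_row_inl ha0, x_row_inl ha0, hG' y hy, hd y hy]
    have hne3 : (⟨D.neg a, hna⟩ : Fin D.nroots) ≠ ⟨a, ha0⟩ := by
      intro he; exact hne2 (Fin.mk.inj_iff.mp he)
    simp only [hne3, if_false, mul_zero, zero_add, mul_one]
    have : D.neg a = D.negIdx.getD a 0 := rfl
    simp only [← this, if_true]
  · intro v _ hv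
    rw [x_row_inl ha0]
    cases v with
    | inl j =>
      have : i ≠ j.val := fun e => hv.1 (by congr 1; exact Fin.ext e.symm)
      simp [Fin.ext_iff, this]
    | inr s =>
      have : s ≠ ⟨D.neg a, hna⟩ := fun e => hv.2 (by rw [e])
      by_cases hs : s = ⟨a, ha0⟩
      · simp [hs]
      · have h3 : s.val ≠ D.negIdx.getD a 0 := fun e => this (Fin.ext e)
        simp only []
        rw [if_neg hs, if_neg h3, zero_mul]
  · simp
  · simp

include h h2 in
/-- In an ordered product lying in the closure of the roots with `f ≥ m`, the coefficients at the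
roots with `f < m` vanish. -/
theorem coord {f : ℕ → ℤ} {m : ℤ} (hm : 0 ≤ m) {L : List ℕ} (hL : GoodList D L) {t : ℕ → F}
    (hy : wordL ax L t ∈ rootClosure ax (Ge D f m)) : ∀ r ∈ L, lin D f r < m → t r = 0 := by
  induction L with
  | nil => simp
  | cons a L ih =>
    have hL' := hL.tail h
    have ha := hL.pos a (by simp)
    have ha0 := ha.1
    have hna := h.neg_lt a ha0
    have hpos : ∀ s ∈ L, D.IsPosRoot s ∧ a < s := fun s hs =>
      ⟨hL.pos s (by simp [hs]), (List.pairwise_cons.mp hL.sorted).1 s hs⟩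
    rw [wordL_cons] at hy
    have hc : lin D f a < m → t a = 0 := by
      intro hlt
      by_contra hne
      obtain ⟨i, hi, hci⟩ := exists_cast_ne_zero (F := F) _ _ (h2.prim a ha0)
      have he := entry_head h h2 ax ha hpos (t a) (wordL_mem ax t) hi hna
      have hr := raises_of_mem h ax hm hy
      have hne' : (((xG ax a (t a) * wordL ax L t : GL D.Idx F) : Matrix D.Idx D.Idx F) - 1)
          (Sum.inl ⟨i, hi⟩) (Sum.inr ⟨D.neg a, hna⟩) ≠ 0 := by
        rw [Matrix.sub_apply, he, Matrix.one_apply_ne (by simp), sub_zero]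
        exact mul_ne_zero hci hne
      have h3 := hr _ _ hne'
      simp only [grade_inl, grade_inr] at h3
      have h4 := lin_neg h f ha0
      omega
    have hy' : wordL ax L t ∈ rootClosure ax (Ge D f m) := by
      by_cases hlt : lin D f a < m
      · rw [hc hlt, xG_zero, one_mul] at hy
        exact hy
      · have h3 : xG ax a (t a) ∈ rootClosure ax (Ge D f m) :=
          xG_mem_rootClosure ax ⟨ha0, by omega⟩ _
        exact (Subgroup.mul_mem_cancel_left _ h3).mp hy
    intro r hr hlt
    rcases List.mem_cons.mp hr with rfl | hr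
    · exact hc hlt
    · exact ih hL' hy' r hr hlt

/-- An ordered product with coefficients vanishing outside `P` lies in the closure of `P`. -/
lemma wordL_mem_of_support {P : ℕ → Prop} {L : List ℕ} {t : ℕ → F}
    (hP : ∀ r ∈ L, t r ≠ 0 → P r) : wordL ax L t ∈ rootClosure ax P := by
  induction L with
  | nil => rw [wordL_nil]; exact Subgroup.one_mem _
  | cons a L ih =>
    rw [wordL_cons]
    apply Subgroup.mul_mem
    · by_cases ht : t a = 0
      · rw [ht, xG_zero]; exact Subgroup.one_mem _
      · exact xG_mem_rootClosure ax (hP a (by simp) ht) _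
    · exact ih fun r hr => hP r (by simp [hr])

include h h2 in
/-- An element of `U` lies in the closure of `P` as soon as for each positive root outside `P`
it lies in a closure `X(f ≥ m)` with `f < m` at this root. -/
theorem mem_of_support {y : GL D.Idx F} (hU : y ∈ rootClosure ax D.IsPosRoot) {P : ℕ → Prop}
    (hs : ∀ r, D.IsPosRoot r → ¬ P r → ∃ (f : ℕ → ℤ) (m : ℤ), 0 ≤ m ∧
      y ∈ rootClosure ax (Ge D f m) ∧ lin D f r < m) : y ∈ rootClosure ax P := by
  have hU' : y ∈ rootClosure ax (· ∈ D.posRoots) :=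
    rootClosure_mono ax (fun r hr => mem_posRoots.mpr hr) hU
  obtain ⟨t, rfl⟩ := exists_wordL ax h (goodList_posRoots h) hU'
  apply wordL_mem_of_support ax
  intro r hr htr
  by_contra hn
  obtain ⟨f, m, hm, hy, hlt⟩ := hs r (mem_posRoots.mp hr) hn
  exact htr (coord h h2 ax hm (goodList_posRoots h) hy r hr hlt)

include h h2 in
/-- `x_a(t)`, `t ≠ 0`, is triangular for `f` only if `f(a) ≥ 0`. -/
lemma lin_nonneg_of_mem_upSub {f : ℕ → ℤ} {a : ℕ} (ha : a < D.nroots) {t : F} (ht : t ≠ 0)
    (hm : xG ax a t ∈ upSub (F := F) (grade D f)) : 0 ≤ lin D f a := by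
  obtain ⟨i, hi, hci⟩ := exists_cast_ne_zero (F := F) _ _ (h2.prim a ha)
  have hna := h.neg_lt a ha
  have h3 : D.x F a t (Sum.inl ⟨i, hi⟩) (Sum.inr ⟨D.neg a, hna⟩) ≠ 0 := by
    rw [x_row_inl ha]
    have hne3 : (⟨D.neg a, hna⟩ : Fin D.nroots) ≠ ⟨a, ha⟩ := by
      intro he; exact h.neg_ne a ha (Fin.mk.inj_iff.mp he)
    have : D.neg a = D.negIdx.getD a 0 := rfl
    simp only [hne3, if_false, ← this, if_true]
    exact mul_ne_zero hci ht
  have h4 := hm.1 _ _ h3
  simp only [grade_inl, grade_inr] at h4
  have h5 := lin_neg h f ha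
  omega

include h h2 ax in
/-- An element of the group which is triangular for a functional positive on the fundamental
roots lies in the Borel subgroup. -/
theorem mem_borel_of_upSub {lam : ℕ → ℤ} (hlam : ∀ i, i < D.rank → 0 < lam i) {y : GL D.Idx F}
    (hyG : y ∈ D.group F) (hy : y ∈ upSub (F := F) (grade D lam)) : y ∈ D.borelSubgroup F := by
  classical
  let P := bnPair h h2 ax
  let M : Subgroup ↥(D.group F) := (upSub (F := F) (grade D lam)).subgroupOf (D.group F)
  have hbu : D.borelSubgroup F ≤ upSub (F := F) (grade D lam) := by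
    rw [borelSubgroup, sup_le_iff]
    constructor
    · have : D.posUnipotent F ≤ raisingSubgroup (F := F) (grade D lam) 1 le_rfl := by
        apply Unipotent.closure_le_raising h le_rfl
        intro r hr
        exact ⟨hr.1, lin_pos_of_isPos h hlam hr⟩
      exact this.trans (raising_le_upSub _ _)
    · intro a ha
      obtain ⟨z, rfl⟩ := exists_tor_of_mem ax h ha
      exact tor_mem_upSub _ z
  have hBM : P.B ≤ M := by
    intro b hb
    have hb' : (b : GL D.Idx F) ∈ D.borelSubgroup F := hb
    exact hbu hb'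
  have heq := BNPair.Basic.eq_parabolic (P := P) hBM
  have hemp : {s | s ∈ P.S ∧ s ∈ M} = ∅ := by
    ext s
    simp only [Set.mem_setOf_eq, Set.mem_empty_iff_false, iff_false, not_and]
    rintro ⟨i, hi, hs⟩ hsM
    have e := eq_sG_of_mem h h2 ax hs
    have hsM' : sG ax i ∈ upSub (F := F) (grade D lam) := by
      rw [← e]; exact hsM
    have hp := h.simple_lt i hi
    have hx : xG ax (D.simple i) (-1) ∈ upSub (F := F) (grade D lam) := by
      apply hbu
      exact xG_mem_borel h h2 ax (simple_isPos h hi) _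
    have h3 := sG_mul_x h h2 ax hi (-1)
    rw [neg_neg] at h3
    have h4 : xG ax (D.neg (D.simple i)) 1 = sG ax i * xG ax (D.simple i) (-1) * (sG ax i)⁻¹ := by
      rw [h3]; group
    have h5 : xG ax (D.neg (D.simple i)) 1 ∈ upSub (F := F) (grade D lam) := by
      rw [h4]
      exact Subgroup.mul_mem _ (Subgroup.mul_mem _ hsM' hx) (Subgroup.inv_mem _ hsM')
    have h6 := lin_nonneg_of_mem_upSub h h2 ax (h.neg_lt _ hp) one_ne_zero h5
    rw [lin_neg h lam hp] at h6
    have h7 := lin_pos_of_isPos h hlam (simple_isPos h hi)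
    omega
  rw [hemp, BNPair.Simple.parabolic_empty] at heq
  have hmem : (⟨y, hyG⟩ : ↥(D.group F)) ∈ M := hy
  rw [heq] at hmem
  exact hmem

end Cfsg.Agent.Lib.ECore.Coord
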