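import Cfsg.Agent.Lib.ECore.Conj
import Cfsg.Agent.Lib.Lie.AxOf

/-!
Iterated cores of two conjugate maximal parabolic subgroups of `E₈(2)`.

`M₁` is the maximal parabolic subgroup attached to the node of the diagram with three branches and
`M₂` its conjugate by `n_p` for that node.  The iterated cores are the closures of the roots where
the coefficient of that node (or its image under the reflection) is at least a given number;
this coefficient takes values up to `6`, and this gives the length of the chain.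
-/

set_option autoImplicit false
set_option linter.unusedSectionVars false
set_option linter.unusedVariables false
set_option linter.ambiguousOpen false

namespace Cfsg.Agent.Lib.ECore.Main

open scoped MatrixGroups Matrix
open Cfsg Lie ChevalleyDatum Cfsg.Agent.Lib.Chev
open Tables Tables2 Raise Basic AxBasic Torus Products Products2 Mono1 Mono2 Mono3 Bn
open Cfsg.Agent.Lib.ECore.Coord Cfsg.Agent.Lib.ECore.Conj

/-! ### Abstract group theory -/

section abstract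

variable {G : Type*} [Group G]

lemma mem_core_map (M Y : Subgroup G) (y : G) :
    y ∈ (Y.subgroupOf M).normalCore.map M.subtype ↔ y ∈ M ∧ ∀ m ∈ M, m * y * m⁻¹ ∈ Y := by
  constructor
  · rintro ⟨⟨x, hx⟩, hc, rfl⟩
    refine ⟨hx, fun m hm => ?_⟩
    have := hc ⟨m, hm⟩
    rw [Subgroup.mem_subgroupOf] at this
    simpa using this
  · rintro ⟨hy, hm⟩
    refine ⟨⟨y, hy⟩, ?_, rfl⟩
    rintro ⟨m, hm'⟩
    rw [Subgroup.mem_subgroupOf]
    simpa using hm m hm'

/-- Conjugation by an involution swapping the two sides turns the recursion for the `A` into the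
recursion for the `B`. -/
lemma core_swap (g : G) (hg : g * g = 1) {M₁ M₂ A B A' B' : Subgroup G}
    (hM : ∀ x, x ∈ M₂ ↔ g * x * g⁻¹ ∈ M₁) (hA : ∀ x, x ∈ B ↔ g * x * g⁻¹ ∈ A)
    (hB : ∀ x, x ∈ A ↔ g * x * g⁻¹ ∈ B) (hA' : ∀ x, x ∈ B' ↔ g * x * g⁻¹ ∈ A')
    (hc : A' = ((A ⊓ B).subgroupOf M₁).normalCore.map M₁.subtype) :
    B' = ((A ⊓ B).subgroupOf M₂).normalCore.map M₂.subtype := by
  have hinv : g⁻¹ = g := inv_eq_of_mul_eq_one_right hg
  ext y
  rw [mem_core_map, hA', hc, mem_core_map, ← hM]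
  refine and_congr_right fun _ => ?_
  constructor
  · intro hall m' hm'
    have h3 := hall (g * m' * g⁻¹) ((hM m').mp hm')
    have e : g * m' * g⁻¹ * (g * y * g⁻¹) * (g * m' * g⁻¹)⁻¹ = g * (m' * y * m'⁻¹) * g⁻¹ := by group
    rw [e] at h3
    exact ⟨(hB _).mpr h3.2, (hA _).mpr h3.1⟩
  · intro hall m hm
    have hm' : g * m * g⁻¹ ∈ M₂ := by
      rw [hM]
      have e : g * (g * m * g⁻¹) * g⁻¹ = m := by
        rw [hinv]
        calc g * (g * m * g) * g = (g * g) * m * (g * g) := by group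
          _ = m := by rw [hg]; simp
      rw [e]; exact hm
    have h3 := hall _ hm'
    have e : m * (g * y * g⁻¹) * m⁻¹ = g * (g * m * g⁻¹ * y * (g * m * g⁻¹)⁻¹) * g⁻¹ := by
      have e0 : g * (g * m * g⁻¹ * y * (g * m * g⁻¹)⁻¹) * g⁻¹ =
          (g * g) * m * g⁻¹ * y * g * m⁻¹ * (g * g)⁻¹ := by group
      rw [e0, hg, hinv]
      group
    rw [e]
    exact ⟨(hA _).mp h3.2, (hB _).mp h3.1⟩

end abstract

/-! ### The tables -/

/-- The tables of `E₈`. -/
theorem hE : Tab chevE8 := tab_of_mem (by simp)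
theorem hE2 : Tab2 chevE8 := tab2_of_mem (by simp)
theorem axE : Ax chevE8 (ZMod 2) := Cfsg.Agent.Lib.Lie.AxOf.ax_of_mem (by simp)

/-- the functional: coefficient of the branch node -/
def e3 : ℕ → ℤ := fun j => if j = 3 then 1 else 0

/-- its image under the reflection of the branch node -/
def v1 : ℕ → ℤ := refW chevE8 e3 3

/-- the functional `f ∘ s_{i₁} ∘ s_{i₂} ...` -/
def actW : List ℕ → (ℕ → ℤ) → ℕ → ℤ
  | [], f => f
  | i :: u, f => actW u (refW chevE8 f i)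

/-- functional of a list -/
def ofL (v : List ℤ) : ℕ → ℤ := fun j => v.getD j 0

/-- The orbit of `v1` under the Weyl group of the Levi factor. -/
def famE : List (List ℕ × List ℤ) :=
[([], [0, 1, 1, -1, 1, 0, 0, 0]),
 ([1], [0, -1, 1, 0, 1, 0, 0, 0]),
 ([2], [1, 1, -1, 0, 1, 0, 0, 0]),
 ([4], [0, 1, 1, 0, -1, 1, 0, 0]),
 ([1, 2], [1, -1, -1, 1, 1, 0, 0, 0]),
 ([1, 4], [0, -1, 1, 1, -1, 1, 0, 0]),
 ([2, 0], [-1, 1, 0, 0, 1, 0, 0, 0]),
 ([2, 4], [1, 1, -1, 1, -1, 1, 0, 0]),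
 ([4, 5], [0, 1, 1, 0, 0, -1, 1, 0]),
 ([1, 2, 0], [-1, -1, 0, 1, 1, 0, 0, 0]),
 ([1, 2, 4], [1, -1, -1, 2, -1, 1, 0, 0]),
 ([1, 4, 5], [0, -1, 1, 1, 0, -1, 1, 0]),
 ([2, 0, 4], [-1, 1, 0, 1, -1, 1, 0, 0]),
 ([2, 4, 5], [1, 1, -1, 1, 0, -1, 1, 0]),
 ([4, 5, 6], [0, 1, 1, 0, 0, 0, -1, 1]),
 ([1, 2, 0, 4], [-1, -1, 0, 2, -1, 1, 0, 0]),
 ([1, 2, 4, 5], [1, -1, -1, 2, 0, -1, 1, 0]),
 ([1, 4, 5, 6], [0, -1, 1, 1, 0, 0, -1, 1]),
 ([2, 0, 4, 5], [-1, 1, 0, 1, 0, -1, 1, 0]),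
 ([2, 4, 5, 6], [1, 1, -1, 1, 0, 0, -1, 1]),
 ([4, 5, 6, 7], [0, 1, 1, 0, 0, 0, 0, -1]),
 ([1, 2, 0, 4, 5], [-1, -1, 0, 2, 0, -1, 1, 0]),
 ([1, 2, 4, 5, 6], [1, -1, -1, 2, 0, 0, -1, 1]),
 ([1, 4, 5, 6, 7], [0, -1, 1, 1, 0, 0, 0, -1]),
 ([2, 0, 4, 5, 6], [-1, 1, 0, 1, 0, 0, -1, 1]),
 ([2, 4, 5, 6, 7], [1, 1, -1, 1, 0, 0, 0, -1]),
 ([1, 2, 0, 4, 5, 6], [-1, -1, 0, 2, 0, 0, -1, 1]),
 ([1, 2, 4, 5, 6, 7], [1, -1, -1, 2, 0, 0, 0, -1]),
 ([2, 0, 4, 5, 6, 7], [-1, 1, 0, 1, 0, 0, 0, -1]),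
 ([1, 2, 0, 4, 5, 6, 7], [-1, -1, 0, 2, 0, 0, 0, -1])]

/-- Words whose functionals add up to a functional positive on the fundamental roots. -/
def lamWords : List (List ℕ) :=
  [[1], [1, 2], [2], [], [1, 2, 4], [4], [1, 4, 5], [4, 5, 6], [2, 0, 4, 5], [4]]

theorem fam_words : ∀ p ∈ famE, (∀ i ∈ p.1, i < 8 ∧ i ≠ 3) ∧ ∀ j, j < 8 → actW p.1 v1 j = ofL p.2 j := by
  decide +kernel

theorem lam_words : ∀ u ∈ lamWords, ∀ i ∈ u, i < 8 ∧ i ≠ 3 := by decide +kernel

theorem lam_pos : ∀ j, j < 8 → 0 < sumFun lamWords (fun u => actW u v1) j := by decide +kernel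

/-- kernel form of `lin` -/
def linL (v : List ℤ) (r : ℕ) : ℤ := sumRec (fun j => ofL v j * coef chevE8 r j) 8

lemma lin_ofL (v : List ℤ) (r : ℕ) : lin chevE8 (ofL v) r = linL v r := by
  rw [linL, sumRec_eq]
  rfl

/-- For every positive root there is a member of the orbit below its coefficient. -/
def famCheck : Bool :=
  allBelow 240 fun r =>
    !(allBelow 8 fun i => decide (0 ≤ coef chevE8 r i)) ||
      (if coef chevE8 r 3 ≤ 1 then famE.any fun p => decide (linL p.2 r < 0)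
       else famE.any fun p => decide (linL p.2 r < coef chevE8 r 3))

theorem famCheck_true : famCheck = true := by decide +kernel

/-- The reflected functional goes down by at most one on the high roots. -/
def v1Check : Bool :=
  allBelow 240 fun r =>
    decide (coef chevE8 r 3 < 2) || decide (coef chevE8 r 3 - 1 ≤ linL [0, 1, 1, -1, 1, 0, 0, 0] r)

theorem v1Check_true : v1Check = true := by decide +kernel

theorem coef_le_six : allBelow 240 (fun r => decide (coef chevE8 r 3 ≤ 6)) = true := by decide +kernel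

theorem coef_top : coef chevE8 239 3 = 6 := by decide +kernel

theorem rank_eq : chevE8.rank = 8 := rfl
theorem nroots_eq : chevE8.nroots = 240 := rfl

lemma lin_congr {f g : ℕ → ℤ} (hfg : ∀ j, j < 8 → f j = g j) (r : ℕ) :
    lin chevE8 f r = lin chevE8 g r := by
  simp only [lin]
  apply Finset.sum_congr rfl
  intro j hj
  rw [hfg j (Finset.mem_range.mp hj)]

lemma Ge_congr {f g : ℕ → ℤ} (hfg : ∀ j, j < 8 → f j = g j) (m : ℤ) :
    Ge chevE8 f m = Ge chevE8 g m := by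
  funext r
  simp only [Ge, lin_congr hfg r]

lemma lin_e3 (r : ℕ) : lin chevE8 e3 r = coef chevE8 r 3 := by
  simp only [lin]
  rw [Finset.sum_eq_single 3]
  · simp [e3]
  · intro j _ hj
    simp [e3, hj]
  · intro hn
    exact absurd (Finset.mem_range.mpr (by rw [rank_eq]; norm_num)) hn

lemma lin_v1_ge {r : ℕ} (hr : r < 240) (h2r : 2 ≤ coef chevE8 r 3) :
    coef chevE8 r 3 - 1 ≤ lin chevE8 v1 r := by
  have h3 := allBelow_spec v1Check_true r hr
  simp only [Bool.or_eq_true, decide_eq_true_eq] at h3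
  rcases h3 with h3 | h3
  · omega
  · have e : ∀ j, j < 8 → v1 j = ofL [0, 1, 1, -1, 1, 0, 0, 0] j := by decide +kernel
    rw [lin_congr e, lin_ofL]
    exact h3

lemma fam_spec {r : ℕ} (hr : chevE8.IsPosRoot r) :
    (coef chevE8 r 3 ≤ 1 → ∃ p ∈ famE, lin chevE8 (ofL p.2) r < 0) ∧
      (2 ≤ coef chevE8 r 3 → ∃ p ∈ famE, lin chevE8 (ofL p.2) r < coef chevE8 r 3) := by
  have hr0 : r < 240 := hr.1
  have h3 := allBelow_spec famCheck_true r hr0
  have hp : (allBelow 8 fun i => decide (0 ≤ coef chevE8 r i)) = true := by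
    have hc := (isPosRoot_iff hE hr.1).mp hr
    have : ∀ k, k ≤ 8 → (allBelow k fun i => decide (0 ≤ coef chevE8 r i)) = true := by
      intro k
      induction k with
      | zero => intro _; rfl
      | succ k ih =>
        intro hk
        simp only [allBelow, Bool.and_eq_true, decide_eq_true_eq]
        exact ⟨hc k (by rw [rank_eq]; omega), ih (by omega)⟩
    exact this 8 le_rfl
  simp only [hp, Bool.not_true, Bool.false_or] at h3
  constructor
  · intro hc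
    rw [if_pos hc, List.any_eq_true] at h3
    obtain ⟨p, hp1, hp2⟩ := h3
    refine ⟨p, hp1, ?_⟩
    rw [lin_ofL]
    simpa using hp2
  · intro hc
    rw [if_neg (by omega), List.any_eq_true] at h3
    obtain ⟨p, hp1, hp2⟩ := h3
    refine ⟨p, hp1, ?_⟩
    rw [lin_ofL]
    simpa using hp2

/-! ### The closures -/

/-- the closure of the roots -/
abbrev X (T : ℕ → Prop) : Subgroup (GL chevE8.Idx (ZMod 2)) := rootClosure axE T

/-- The elements of the core of `X(e₃ ≥ k) ⊓ X(v₁ ≥ k)` in `X(e₃ ≥ 0)`. -/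
structure InCore (k : ℤ) (y : GL chevE8.Idx (ZMod 2)) : Prop where
  mem : y ∈ X (Ge chevE8 e3 0)
  conj : ∀ m ∈ X (Ge chevE8 e3 0), m * y * m⁻¹ ∈ X (Ge chevE8 e3 k) ⊓ X (Ge chevE8 v1 k)

lemma InCore.conj_mem {k : ℤ} {y m : GL chevE8.Idx (ZMod 2)} (hy : InCore k y)
    (hm : m ∈ X (Ge chevE8 e3 0)) : InCore k (m * y * m⁻¹) where
  mem := Subgroup.mul_mem _ (Subgroup.mul_mem _ hm hy.mem) (Subgroup.inv_mem _ hm)
  conj := by
    intro m' hm'
    have e : m' * (m * y * m⁻¹) * m'⁻¹ = (m' * m) * y * (m' * m)⁻¹ := by group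
    rw [e]
    exact hy.conj _ (Subgroup.mul_mem _ hm' hm)

lemma InCore.ge_e3 {k : ℤ} {y : GL chevE8.Idx (ZMod 2)} (hy : InCore k y) :
    y ∈ X (Ge chevE8 e3 k) := by
  have := (hy.conj 1 (Subgroup.one_mem _)).1
  simpa using this

lemma InCore.ge_v1 {k : ℤ} {y : GL chevE8.Idx (ZMod 2)} (hy : InCore k y) :
    y ∈ X (Ge chevE8 v1 k) := by
  have := (hy.conj 1 (Subgroup.one_mem _)).2
  simpa using this

lemma inCore_refW {k : ℤ} {f : ℕ → ℤ} (hf : ∀ y, InCore k y → y ∈ X (Ge chevE8 f k)) {i : ℕ}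
    (hi : i < 8) (hi3 : i ≠ 3) : ∀ y, InCore k y → y ∈ X (Ge chevE8 (refW chevE8 f i) k) := by
  intro y hy
  have hi' : i < chevE8.rank := hi
  rw [mem_refW_iff hE hE2 axE hi']
  apply hf
  apply hy.conj_mem
  exact sG_mem_Ge_zero hE hE2 axE hi' (by simp [e3, hi3])

lemma inCore_actW {k : ℤ} (u : List ℕ) (hu : ∀ i ∈ u, i < 8 ∧ i ≠ 3) {f : ℕ → ℤ}
    (hf : ∀ y, InCore k y → y ∈ X (Ge chevE8 f k)) :
    ∀ y, InCore k y → y ∈ X (Ge chevE8 (actW u f) k) := by
  induction u generalizing f with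
  | nil => exact hf
  | cons i u ih =>
    have h3 := hu i (by simp)
    exact ih (fun j hj => hu j (by simp [hj])) (inCore_refW hf h3.1 h3.2)

lemma inCore_fam {k : ℤ} {p : List ℕ × List ℤ} (hp : p ∈ famE) {y : GL chevE8.Idx (ZMod 2)}
    (hy : InCore k y) : y ∈ X (Ge chevE8 (ofL p.2) k) := by
  obtain ⟨h3, h4⟩ := fam_words p hp
  rw [← Ge_congr h4]
  exact inCore_actW p.1 h3 (fun y hy => hy.ge_v1) y hy

lemma X_le_group (T : ℕ → Prop) (hT : ∀ r, T r → r < chevE8.nroots) : X T ≤ chevE8.group (ZMod 2) :=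
  rootClosure_le axE fun r t hr => xG_mem_group axE (hT r hr) t

lemma Ge_le_group (f : ℕ → ℤ) (m : ℤ) : X (Ge chevE8 f m) ≤ chevE8.group (ZMod 2) :=
  X_le_group _ fun _ hr => hr.1

/-- `k ≥ 2`: the upper bound for the core. -/
theorem core_upper_pos {k : ℤ} (hk : 2 ≤ k) {y : GL chevE8.Idx (ZMod 2)} (hy : InCore k y) :
    y ∈ X (Ge chevE8 e3 (k + 1)) := by
  have hyk := hy.ge_e3
  have hU : y ∈ rootClosure axE chevE8.IsPosRoot := by
    refine rootClosure_mono axE ?_ hyk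
    rintro r ⟨hr, hl⟩
    rw [lin_e3] at hl
    exact isPos_of_coef_pos hE hr (m := 3) (by rw [rank_eq]; norm_num) (by omega)
  apply mem_of_support hE hE2 axE hU
  intro r hrp hn
  have hlt : coef chevE8 r 3 < k + 1 := by
    by_contra hn'
    apply hn
    refine ⟨hrp.1, ?_⟩
    rw [lin_e3]
    omega
  by_cases hlt' : coef chevE8 r 3 < k
  · exact ⟨e3, k, by omega, hyk, by rw [lin_e3]; exact hlt'⟩
  · have hek : coef chevE8 r 3 = k := by omega
    obtain ⟨p, hp, hlt''⟩ := (fam_spec hrp).2 (by omega)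
    rw [hek] at hlt''
    exact ⟨ofL p.2, k, by omega, inCore_fam hp hy, hlt''⟩

/-- `k = 0`: the upper bound for the core. -/
theorem core_upper_zero {y : GL chevE8.Idx (ZMod 2)} (hy : InCore 0 y) :
    y ∈ X (Ge chevE8 e3 2) := by
  have hup : y ∈ upSub (F := ZMod 2) (grade chevE8 (sumFun lamWords (fun u => actW u v1))) := by
    apply upSub_sum
    intro u hu
    exact mem_upSub_of_mem hE axE le_rfl
      (inCore_actW u (lam_words u hu) (fun y hy => hy.ge_v1) y hy)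
  have hb := mem_borel_of_upSub hE hE2 axE (lam := sumFun lamWords (fun u => actW u v1))
    (fun i hi => lam_pos i hi) (Ge_le_group _ _ hy.mem) hup
  rw [borel_eq axE, posUnipotent_eq axE] at hb
  apply mem_of_support hE hE2 axE hb
  intro r hrp hn
  have hlt : coef chevE8 r 3 < 2 := by
    by_contra hn'
    apply hn
    refine ⟨hrp.1, ?_⟩
    rw [lin_e3]
    omega
  obtain ⟨p, hp, hlt'⟩ := (fam_spec hrp).1 (by omega)
  exact ⟨ofL p.2, 0, le_rfl, inCore_fam hp hy, hlt'⟩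

/-- the lower bound for the core -/
theorem core_lower {k k' : ℤ} (hk : (k = 0 ∧ k' = 2) ∨ (2 ≤ k ∧ k' = k + 1)) {y : GL chevE8.Idx (ZMod 2)}
    (hy : y ∈ X (Ge chevE8 e3 k')) : InCore k y := by
  have hk0 : 0 ≤ k' := by omega
  have hk2 : 2 ≤ k' := by omega
  refine ⟨rootClosure_mono axE (fun r hr => Ge_mono hk0 hr) hy, fun m hm => ?_⟩
  have hn := closure_le_normalizer hE axE k' hm
  have h3 : m * y * m⁻¹ ∈ X (Ge chevE8 e3 k') := (Subgroup.mem_normalizer_iff.mp hn y).mp hy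
  constructor
  · exact rootClosure_mono axE (fun r hr => Ge_mono (by omega) hr) h3
  · refine rootClosure_mono axE ?_ h3
    rintro r ⟨hr, hl⟩
    rw [lin_e3] at hl
    refine ⟨hr, ?_⟩
    have := lin_v1_ge hr (by omega)
    omega

/-! ### In the group -/

/-- The group. -/
abbrev GE := ↥(chevE8.group (ZMod 2))

/-- The sequence of thresholds. -/
def thr : ℕ → ℤ
  | 0 => 0
  | i + 1 => (i : ℤ) + 2

lemma thr_step (i : ℕ) : (thr i = 0 ∧ thr (i + 1) = 2) ∨ (2 ≤ thr i ∧ thr (i + 1) = thr i + 1) := by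
  cases i with
  | zero => left; simp [thr]
  | succ j =>
    right
    simp only [thr]
    constructor
    · have : (0 : ℤ) ≤ j := by positivity
      omega
    · push_cast; ring

/-- The recursion for the `A`. -/
theorem core_rec (i : ℕ) :
    Sg axE (Ge chevE8 e3 (thr (i + 1))) =
      ((Sg axE (Ge chevE8 e3 (thr i)) ⊓ Sg axE (Ge chevE8 v1 (thr i))).subgroupOf
        (Sg axE (Ge chevE8 e3 0))).normalCore.map (Sg axE (Ge chevE8 e3 0)).subtype := by
  ext y
  rw [mem_core_map, mem_Sg, mem_Sg]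
  constructor
  · intro hy
    have hc := core_lower (thr_step i) hy
    refine ⟨hc.mem, fun m hm => ?_⟩
    have h3 := hc.conj (m : GL chevE8.Idx (ZMod 2)) ((mem_Sg axE).mp hm)
    exact ⟨(mem_Sg axE).mpr (by simpa using h3.1), (mem_Sg axE).mpr (by simpa using h3.2)⟩
  · rintro ⟨hy, hall⟩
    have hc : InCore (thr i) (y : GL chevE8.Idx (ZMod 2)) := by
      refine ⟨hy, fun m hm => ?_⟩
      have h3 := hall ⟨m, Ge_le_group _ _ hm⟩ ((mem_Sg axE).mpr hm)
      exact ⟨by simpa using (mem_Sg axE).mp h3.1, by simpa using (mem_Sg axE).mp h3.2⟩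
    rcases thr_step i with ⟨h3, h4⟩ | ⟨h3, h4⟩
    · rw [h3] at hc
      rw [h4]
      exact core_upper_zero hc
    · rw [h4]
      exact core_upper_pos h3 hc

/-- The element `n_p` of the branch node. -/
def gE : GE := ⟨sG axE 3, monomial_le_group hE axE (sG_mem_monomial hE hE2 axE (by rw [rank_eq]; norm_num))⟩

lemma gE_mul_self : gE * gE = 1 := Subtype.ext (sG_mul_self axE 3)

lemma mem_v1_iff (m : ℤ) (x : GE) : x ∈ Sg axE (Ge chevE8 v1 m) ↔ gE * x * gE⁻¹ ∈ Sg axE (Ge chevE8 e3 m) := by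
  rw [mem_Sg, mem_Sg]
  exact mem_refW_iff hE hE2 axE (by rw [rank_eq]; norm_num) (x : GL chevE8.Idx (ZMod 2))

lemma mem_e3_iff (m : ℤ) (x : GE) : x ∈ Sg axE (Ge chevE8 e3 m) ↔ gE * x * gE⁻¹ ∈ Sg axE (Ge chevE8 v1 m) := by
  rw [mem_Sg, mem_Sg]
  exact mem_iff_refW hE hE2 axE (by rw [rank_eq]; norm_num) (x : GL chevE8.Idx (ZMod 2))

theorem core_rec' (i : ℕ) :
    Sg axE (Ge chevE8 v1 (thr (i + 1))) =
      ((Sg axE (Ge chevE8 e3 (thr i)) ⊓ Sg axE (Ge chevE8 v1 (thr i))).subgroupOf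
        (Sg axE (Ge chevE8 v1 0))).normalCore.map (Sg axE (Ge chevE8 v1 0)).subtype := by
  have h1 := mem_v1_iff 0
  have h2 := mem_v1_iff (thr i)
  have h3 := mem_e3_iff (thr i)
  have h4 := mem_v1_iff (thr (i + 1))
  have h5 := core_rec i
  generalize Sg axE (Ge chevE8 v1 (thr (i + 1))) = a1 at *
  generalize Sg axE (Ge chevE8 e3 (thr (i + 1))) = a2 at *
  generalize Sg axE (Ge chevE8 e3 (thr i)) = a3 at *
  generalize Sg axE (Ge chevE8 v1 (thr i)) = a4 at *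
  generalize Sg axE (Ge chevE8 e3 0) = a5 at *
  generalize Sg axE (Ge chevE8 v1 0) = a6 at *
  refine core_swap (G := GE) gE ?_ h1 h2 h3 h4 h5
  exact Subtype.ext (sG_mul_self axE 3)

theorem isCoatom_M : IsCoatom (Sg axE (Ge chevE8 e3 0)) :=
  isCoatom_Ge hE hE2 axE (i₀ := 3) (by rw [rank_eq]; norm_num) (by simp [e3])
    (fun i _ hi => by simp [e3, hi])

lemma map_eq : Sg axE (Ge chevE8 v1 0) = (Sg axE (Ge chevE8 e3 0)).map (MulAut.conj gE).toMonoidHom := by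
  ext y
  simp only [Subgroup.mem_map, MulEquiv.coe_toMonoidHom, MulAut.conj_apply]
  constructor
  · intro hy
    refine ⟨gE * y * gE⁻¹, (mem_v1_iff 0 y).mp hy, ?_⟩
    have hinv : gE⁻¹ = gE := inv_eq_of_mul_eq_one_right gE_mul_self
    rw [hinv]
    calc gE * (gE * y * gE) * gE = (gE * gE) * y * (gE * gE) := by group
      _ = y := by rw [gE_mul_self]; simp
  · rintro ⟨x, hx, rfl⟩
    exact (mem_e3_iff 0 x).mp hx

theorem M_ne : Sg axE (Ge chevE8 e3 0) ≠ Sg axE (Ge chevE8 v1 0) := by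
  intro he
  have h3 : (3 : ℕ) < chevE8.rank := by rw [rank_eq]; norm_num
  have hp := hE.simple_lt 3 h3
  have h1 : Ge chevE8 e3 0 (chevE8.simple 3) :=
    ⟨hp, by rw [lin_simple hE e3 h3]; simp [e3]⟩
  have hm : (⟨xG axE (chevE8.simple 3) 1, xG_mem_group axE hp 1⟩ : GE) ∈ Sg axE (Ge chevE8 e3 0) :=
    (mem_Sg axE).mpr (xG_mem_rootClosure axE h1 1)
  rw [he, mem_Sg] at hm
  have h4 := mem_upSub_of_mem hE axE le_rfl hm
  have h5 := lin_nonneg_of_mem_upSub hE hE2 axE hp one_ne_zero h4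
  rw [lin_simple hE v1 h3] at h5
  have : v1 3 = -1 := by decide +kernel
  omega

theorem core_M : (Sg axE (Ge chevE8 e3 0)).normalCore = ⊥ := by
  have hs := (ChevPerfect.simple_all (D := chevE8) (F := ZMod 2) (by simp) axE (by
    rintro (h3 | h3) <;> exact absurd (congrArg ChevalleyDatum.rank h3) (by decide +kernel))).1
  rcases hs.eq_bot_or_eq_top_of_normal _ (Subgroup.normalCore_normal (Sg axE (Ge chevE8 e3 0))) with h3 | h3
  · exact h3
  · exfalso
    apply isCoatom_M.1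
    rw [eq_top_iff, ← h3]
    exact Subgroup.normalCore_le _

theorem A_six : Sg axE (Ge chevE8 e3 (thr 6)) = ⊥ := by
  rw [eq_bot_iff]
  intro y hy
  rw [mem_Sg] at hy
  have h3 : rootClosure axE (Ge chevE8 e3 (thr 6)) ≤ ⊥ := by
    apply rootClosure_le
    rintro r t ⟨hr, hl⟩
    exfalso
    rw [lin_e3] at hl
    have h4 := allBelow_spec coef_le_six r hr
    simp only [decide_eq_true_eq] at h4
    have : thr 6 = 7 := rfl
    omega
  have h4 := h3 hy
  rw [Subgroup.mem_bot] at h4 ⊢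
  exact Subtype.ext h4

theorem A_five : Sg axE (Ge chevE8 e3 (thr 5)) ≠ ⊥ := by
  intro he
  have hr : (239 : ℕ) < chevE8.nroots := by rw [nroots_eq]; norm_num
  have h1 : Ge chevE8 e3 (thr 5) 239 := ⟨hr, by rw [lin_e3, coef_top]; decide⟩
  have hm : (⟨xG axE 239 1, xG_mem_group axE hr 1⟩ : GE) ∈ Sg axE (Ge chevE8 e3 (thr 5)) :=
    (mem_Sg axE).mpr (xG_mem_rootClosure axE h1 1)
  rw [he, Subgroup.mem_bot] at hm
  have e : xG axE 239 (1 : ZMod 2) = xG axE 239 0 := by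
    rw [xG_zero]
    exact congrArg Subtype.val hm
  exact one_ne_zero (xG_eq_iff axE hE hE2 hr hr one_ne_zero e).2

/-- The extremal example. -/
theorem main :
    ∃ (G : Type) (_ : Group G) (_ : Finite G) (M₁ M₂ : Subgroup G) (g : G) (A B : ℕ → Subgroup G),
      IsCoatom M₁ ∧ M₂ = M₁.map (MulAut.conj g).toMonoidHom ∧ M₁ ≠ M₂ ∧ M₁.normalCore = ⊥ ∧ A 0 = M₁ ∧ B 0 = M₂ ∧
      (∀ i, A (i + 1) = ((A i ⊓ B i).subgroupOf M₁).normalCore.map M₁.subtype) ∧
      (∀ i, B (i + 1) = ((A i ⊓ B i).subgroupOf M₂).normalCore.map M₂.subtype) ∧ A 6 = ⊥ ∧ A 5 ≠ ⊥ :=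
  ⟨GE, inferInstance, inferInstance, Sg axE (Ge chevE8 e3 0), Sg axE (Ge chevE8 v1 0), gE,
    fun i => Sg axE (Ge chevE8 e3 (thr i)), fun i => Sg axE (Ge chevE8 v1 (thr i)),
    isCoatom_M, map_eq, M_ne, core_M, rfl, rfl, core_rec, core_rec', A_six, A_five⟩

end Cfsg.Agent.Lib.ECore.Main
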